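import Cfsg.Agent.H934.MF.Blk
import Cfsg.Agent.H934.MF.Poly
import Cfsg.Agent.H934.MF.Two

/-!
# Kernel checks with `5 × 5` matrices over the field with four elements

Elements `0, 1, w, w + 1` are the two-bit numbers `0, 1, 2, 3`; a row is a number of ten bits.
-/

set_option autoImplicit false
set_option linter.unusedSectionVars false

namespace Cfsg.Agent.H85.Pw.CertFour

open Matrix Polynomial
open Cfsg.Agent.H934.MF (blk en en_spec mono toP mono_monic mono_natDegree charpoly_of_vec)

/-- multiplication by `w` -/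
def mw (v : ℕ) : ℕ := ((v &&& 682) >>> 1) ^^^ (((v &&& 341) <<< 1) ^^^ (v &&& 682))

/-- multiplication by a digit -/
def sm (c r : ℕ) : ℕ := if c = 0 then 0 else if c = 1 then r else if c = 2 then mw r else r ^^^ mw r

/-- linear combination of rows -/
def vm : ℕ → List ℕ → ℕ
  | _, [] => 0
  | v, r :: rs => sm (v % 4) r ^^^ vm (v / 4) rs

variable {K : Type*} [Field K] (w : K)

/-- a bit as an element of the field -/
def bt (K : Type*) [Field K] (v j : ℕ) : K := if v.testBit j then 1 else 0

/-- a digit as an element of the field -/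
def co (v j : ℕ) : K := bt K v (2 * j) + w * bt K v (2 * j + 1)

theorem bt_zero (j : ℕ) : bt K 0 j = 0 := by rw [bt, Nat.zero_testBit]; rfl

theorem bt_xor (h2 : (2 : K) = 0) (a b j : ℕ) : bt K (a ^^^ b) j = bt K a j + bt K b j := by
  have h : (1 : K) + 1 = 0 := by rw [one_add_one_eq_two, h2]
  rw [bt, bt, bt, Nat.testBit_xor]
  cases a.testBit j <;> cases b.testBit j <;> simp [h]

theorem co_zero (j : ℕ) : co w 0 j = 0 := by rw [co, bt_zero, bt_zero, mul_zero, add_zero]

theorem co_xor (h2 : (2 : K) = 0) (a b j : ℕ) : co w (a ^^^ b) j = co w a j + co w b j := by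
  rw [co, co, co, bt_xor h2, bt_xor h2]
  ring

theorem tb1 (j : ℕ) (hj : j < 5) : (682 : ℕ).testBit (2 * j) = false ∧ (682 : ℕ).testBit (2 * j + 1) = true ∧
    (341 : ℕ).testBit (2 * j) = true ∧ (341 : ℕ).testBit (2 * j + 1) = false ∧
    (682 : ℕ).testBit (1 + 2 * j) = true ∧ (682 : ℕ).testBit (1 + (2 * j + 1)) = false := by
  interval_cases j <;> decide

theorem co_mw (h2 : (2 : K) = 0) (hw : w ^ 2 = w + 1) (v j : ℕ) (hj : j < 5) : co w (mw v) j = w * co w v j := by
  obtain ⟨h3, h4, h5, h6, h7, h8⟩ := tb1 j hj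
  have e1 : bt K (mw v) (2 * j) = bt K v (2 * j + 1) := by
    have h9 : (decide (2 * j ≥ 1) && (v.testBit (2 * j - 1) && (341 : ℕ).testBit (2 * j - 1))) = false := by
      rcases Nat.eq_zero_or_pos j with rfl | h0
      · rfl
      · have : 2 * j - 1 = 2 * (j - 1) + 1 := by omega
        rw [this, (tb1 (j - 1) (by omega)).2.2.2.1, Bool.and_false, Bool.and_false]
    rw [mw, bt_xor h2, bt_xor h2, bt, bt, bt, bt, Nat.testBit_shiftRight, Nat.testBit_shiftLeft, Nat.testBit_and,
      Nat.testBit_and, Nat.testBit_and, h7, h3, h9, Bool.and_true, Bool.and_false, add_comm 1 (2 * j)]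
    simp
  have e2 : bt K (mw v) (2 * j + 1) = bt K v (2 * j) + bt K v (2 * j + 1) := by
    rw [mw, bt_xor h2, bt_xor h2, bt, bt, bt, bt, bt, Nat.testBit_shiftRight, Nat.testBit_shiftLeft, Nat.testBit_and,
      Nat.testBit_and, Nat.testBit_and, h8, h4, Bool.and_true, Bool.and_false, Nat.add_sub_cancel, h5, Bool.and_true]
    have h9 : decide (2 * j + 1 ≥ 1) = true := by rw [decide_eq_true_iff]; omega
    rw [h9, Bool.true_and]
    simp
  rw [co, co, e1, e2]
  linear_combination (-(bt K v (2 * j + 1))) * hw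

theorem co_two (c : ℕ) (hc : c < 4) : co w c 0 = if c = 0 then 0 else if c = 1 then 1 else if c = 2 then w else 1 + w := by
  interval_cases c <;> simp [co, bt, Nat.testBit]

theorem co_sm (h2 : (2 : K) = 0) (hw : w ^ 2 = w + 1) {c : ℕ} (hc : c < 4) (r j : ℕ) (hj : j < 5) :
    co w (sm c r) j = co w c 0 * co w r j := by
  rw [co_two w c hc, sm]
  by_cases h0 : c = 0
  · rw [if_pos h0, if_pos h0, co_zero, zero_mul]
  · rw [if_neg h0, if_neg h0]
    by_cases h1 : c = 1
    · rw [if_pos h1, if_pos h1, one_mul]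
    · rw [if_neg h1, if_neg h1]
      by_cases h3 : c = 2
      · rw [if_pos h3, if_pos h3, co_mw w h2 hw _ _ hj]
      · rw [if_neg h3, if_neg h3, co_xor w h2, co_mw w h2 hw _ _ hj]
        ring

theorem co_div (v k : ℕ) : co w (v / 4) k = co w v (k + 1) := by
  have h : ∀ i, (v / 4).testBit i = v.testBit (i + 2) := fun i => by
    rw [show 4 = 2 ^ 2 by rfl, Nat.testBit_div_two_pow]
  rw [co, co, bt, bt, bt, bt, h, h, show 2 * k + 2 = 2 * (k + 1) by ring, show 2 * k + 1 + 2 = 2 * (k + 1) + 1 by ring]

theorem co_mod (v : ℕ) : co w (v % 4) 0 = co w v 0 := by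
  have h : ∀ i < 2, (v % 4).testBit i = v.testBit i := fun i hi => by
    rw [show 4 = 2 ^ 2 by rfl, Nat.testBit_mod_two_pow, decide_eq_true hi, Bool.true_and]
  rw [co, co, bt, bt, bt, bt, h _ (by norm_num), h _ (by norm_num)]

theorem co_vm (h2 : (2 : K) = 0) (hw : w ^ 2 = w + 1) (j : ℕ) (hj : j < 5) : ∀ (R : List ℕ) (v : ℕ),
    co w (vm v R) j = ∑ k ∈ Finset.range R.length, co w v k * co w (R.getD k 0) j
  | [], v => by simp [vm, co_zero]
  | r :: rs, v => by
    rw [List.length_cons, Finset.sum_range_succ', List.getD_cons_zero, vm, co_xor w h2,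
      co_sm w h2 hw (Nat.mod_lt _ (by norm_num)) _ _ hj, co_vm h2 hw j hj rs (v / 4), co_mod, add_comm]
    congr 1
    refine Finset.sum_congr rfl fun k _ => ?_
    rw [co_div, List.getD_cons_succ]

/-- row vector -/
def row (v : ℕ) : Fin 5 → K := fun j => co w v j

/-- matrix from rows -/
def mat (R : List ℕ) : Matrix (Fin 5) (Fin 5) K := Matrix.of fun i j => co w (R.getD i 0) j

theorem row_vm (h2 : (2 : K) = 0) (hw : w ^ 2 = w + 1) {R : List ℕ} (hR : R.length = 5) (v : ℕ) :
    row w (vm v R) = row w v ᵥ* mat w R := by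
  ext j
  rw [row, co_vm w h2 hw j j.2, hR, Matrix.vecMul, dotProduct,
    ← Fin.sum_univ_eq_sum_range (fun k => co w v k * co w (R.getD k 0) j)]
  rfl

/-- product of matrices -/
def mulR (A B : List ℕ) : List ℕ := A.map fun a => vm a B

theorem getD_map {α β : Type*} (f : α → β) (l : List α) (i : ℕ) (a : α) (b : β) (hi : i < l.length) :
    (l.map f).getD i b = f (l.getD i a) := by
  rw [List.getD_eq_getElem _ _ (by rw [List.length_map]; exact hi), List.getElem_map,
    List.getD_eq_getElem _ _ hi]

theorem mat_mulR (h2 : (2 : K) = 0) (hw : w ^ 2 = w + 1) {A B : List ℕ} (hA : A.length = 5) (hB : B.length = 5) :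
    mat w (mulR A B) = mat w A * mat w B := by
  ext i j
  have h1 : (mulR A B).getD i 0 = vm (A.getD i 0) B := by
    rw [mulR, getD_map _ _ _ 0 _ (by rw [hA]; exact i.2)]
  rw [mat, Matrix.of_apply, h1]
  exact congrFun (row_vm w h2 hw hB (A.getD i 0)) j

/-- the check `v f(X) = acc` -/
def kr (R : List ℕ) : List Bool → ℕ → ℕ → Bool
  | [], v, acc => v == acc
  | b :: l, v, acc => kr R l (vm v R) (if b = true then acc ^^^ v else acc)

/-- coefficients -/
def zl (K : Type*) [Field K] (l : List Bool) : List K := l.map fun b => if b = true then 1 else 0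

theorem kr_spec (h2 : (2 : K) = 0) (hw : w ^ 2 = w + 1) {R : List ℕ} (hR : R.length = 5) :
    ∀ (l : List Bool) (v acc : ℕ), kr R l v acc = true →
    row w v ᵥ* (aeval (mat w R) (mono (zl K l))) = row w acc
  | [], v, acc, h => by
    rw [kr, beq_iff_eq] at h
    have : mono (zl K []) = 1 := by
      rw [zl, List.map_nil, mono, List.nil_append, toP, toP, mul_zero, add_zero, C_1]
    rw [this, map_one, Matrix.vecMul_one, h]
  | b :: l, v, acc, h => by
    have h1 := kr_spec h2 hw hR l _ _ h
    have h3 : mono (zl K (b :: l)) = C (if b = true then (1 : K) else 0) + X * mono (zl K l) := rfl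
    rw [h3, map_add, map_mul, aeval_X, aeval_C, Matrix.vecMul_add, ← Matrix.vecMul_vecMul, ← row_vm w h2 hw hR, h1]
    cases b
    · simp
    · simp only [if_true, map_one, Matrix.vecMul_one]
      ext j
      change co w v j + co w (acc ^^^ v) j = co w acc j
      rw [co_xor w h2]
      linear_combination (co w v j) * h2

theorem charpoly_of_kr (h2 : (2 : K) = 0) (hw : w ^ 2 = w + 1) {R : List ℕ} (hR : R.length = 5) {l : List Bool}
    (hl : l.length = 5) (hirr : Irreducible (mono (zl K l))) (h : kr R l 1 0 = true) :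
    (mat w R).charpoly = mono (zl K l) := by
  refine charpoly_of_vec hirr (mono_monic _) (by rw [mono_natDegree, zl, List.length_map, hl]) (v := row w 1) ?_ ?_
  · intro h0
    have := congrFun h0 0
    rw [row] at this
    have h3 : co w 1 ((0 : Fin 5) : ℕ) = 1 := by
      rw [Fin.val_zero, co_two w 1 (by norm_num)]; simp
    rw [h3] at this
    exact one_ne_zero this
  · rw [kr_spec w h2 hw hR l 1 0 h]
    ext j
    exact co_zero w _

/-- digits -/
def dg (c i : ℕ) : ℕ := c / 2 ^ (2 * i) % 4

theorem dg_lt (c i : ℕ) : dg c i < 4 := Nat.mod_lt _ (by norm_num)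

theorem co_dg (c i : ℕ) : co w (dg c i) 0 = co w c i := by
  have h : ∀ k, (c / 2 ^ (2 * i)).testBit k = c.testBit (k + 2 * i) := fun k => by
    rw [Nat.testBit_div_two_pow]
  rw [dg, co_mod, co, co, bt, bt, bt, bt, h, h]
  congr 2
  · rw [show 2 * 0 + 2 * i = 2 * i by ring]
  · rw [show 2 * 0 + 1 + 2 * i = 2 * i + 1 by ring]

theorem co_pow (k j : ℕ) : co w (2 ^ (2 * k)) j = if k = j then 1 else 0 := by
  rw [co, bt, bt, Nat.testBit_two_pow, Nat.testBit_two_pow]
  have h1 : decide (2 * k = 2 * j + 1) = false := by rw [decide_eq_false_iff_not]; omega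
  rw [h1]
  by_cases h : k = j
  · rw [if_pos h, h]; simp
  · rw [if_neg h]
    have h3 : decide (2 * k = 2 * j) = false := by rw [decide_eq_false_iff_not]; omega
    rw [h3]; simp

/-- row of the block companion matrix -/
def bRow (b c i : ℕ) : ℕ :=
  (if i = 0 ∨ b.testBit (i - 1) = true then 0 else 2 ^ (2 * (i - 1))) ^^^ sm (dg c i) (2 ^ (2 * en b 5 i))

/-- rows of the block companion matrix -/
def rowsB (b c : ℕ) : List ℕ := (List.range 5).map (bRow b c)

theorem mat_rowsB (h2 : (2 : K) = 0) (hw : w ^ 2 = w + 1) {b c : ℕ} (hb : b.testBit 4 = true) :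
    mat w (rowsB b c) = blk (fun i : Fin 5 => b.testBit i) (fun i => co w c i) := by
  ext i j
  have h1 : (rowsB b c).getD i 0 = bRow b c i := by
    rw [rowsB, List.getD_eq_getElem _ _ (by rw [List.length_map, List.length_range]; exact i.2), List.getElem_map,
      List.getElem_range]
  obtain ⟨h3, h3', h4, h5⟩ := en_spec (n := 5) hb 5 i i.2 (by omega)
  rw [mat, Matrix.of_apply, h1, bRow, co_xor w h2, blk, Matrix.of_apply, co_sm w h2 hw (dg_lt _ _) _ _ j.2, co_dg,
    co_pow]
  have e1 : co w (if (i : ℕ) = 0 ∨ b.testBit (i - 1) = true then 0 else 2 ^ (2 * ((i : ℕ) - 1))) j =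
      if (i : ℕ) = j + 1 ∧ b.testBit j = false then 1 else 0 := by
    by_cases h : (i : ℕ) = 0 ∨ b.testBit (i - 1) = true
    · rw [if_pos h, co_zero, if_neg]
      rintro ⟨h6, h7⟩
      rcases h with h | h
      · omega
      · have : (i : ℕ) - 1 = j := by omega
        rw [this, h7] at h
        exact Bool.false_ne_true h
    · rw [if_neg h, co_pow]
      push Not at h
      by_cases h6 : (i : ℕ) - 1 = j
      · rw [if_pos h6, if_pos]
        refine ⟨by omega, ?_⟩
        have := h.2
        rw [h6] at this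
        simpa using this
      · rw [if_neg h6, if_neg]
        rintro ⟨h7, -⟩
        omega
  rw [e1]
  by_cases hj : b.testBit j = true
  · rw [if_neg (by rw [hj]; simp), zero_add]
    simp only [hj, if_true]
    by_cases h6 : en b 5 i = j
    · rw [if_pos h6, mul_one, if_pos]
      refine ⟨Fin.le_def.2 (by omega), fun k hk1 hk2 => h5 k hk1 ?_⟩
      rw [Fin.lt_def] at hk2
      omega
    · rw [if_neg h6, mul_zero, if_neg]
      rintro ⟨h7, h8⟩
      rcases lt_trichotomy (en b 5 i) j with h9 | h9 | h9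
      · have := h8 ⟨en b 5 i, h3'⟩ (Fin.le_def.2 h3) (Fin.lt_def.2 h9)
        simp only at this
        rw [h4] at this
        exact Bool.noConfusion this
      · exact h6 h9
      · rw [h5 j (Fin.le_def.1 h7) h9] at hj
        exact Bool.noConfusion hj
  · have hj' : b.testBit j = false := by simpa using hj
    have h6 : en b 5 i ≠ j := fun h => by rw [h] at h4; exact hj h4
    rw [if_neg h6, mul_zero, add_zero]
    simp only [hj', and_true]
    rfl

/-- multiples of a matrix -/
theorem mat_sm (h2 : (2 : K) = 0) (hw : w ^ 2 = w + 1) {R : List ℕ} (hR : R.length = 5) {s : ℕ} (hs : s < 4) :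
    mat w (R.map (sm s)) = co w s 0 • mat w R := by
  ext i j
  rw [mat, Matrix.of_apply, getD_map _ _ _ 0 _ (by rw [hR]; exact i.2), co_sm w h2 hw hs _ _ j.2, Matrix.smul_apply,
    smul_eq_mul, mat, Matrix.of_apply]

theorem length_rowsB (b c : ℕ) : (rowsB b c).length = 5 := by rw [rowsB, List.length_map, List.length_range]

/-- decoding of a matrix -/
def unM (z : ℕ) : List ℕ :=
  [z % 1024, z / 1024 % 1024, z / 1048576 % 1024, z / 1073741824 % 1024, z / 1099511627776 % 1024]

/-! ### The checks -/

/-- lower coefficients of `X ^ 5 + X ^ 2 + 1` -/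
def lF : List Bool := [true, false, true, false, false]

/-- check of one certificate -/
def okX (s : ℕ) (B x y : List ℕ) : Bool := (mulR x y == B.map (sm s)) && (kr x lF 1 0 && kr y lF 1 0)

/-- check of one certificate -/
def okC (b c z : ℕ) : Bool :=
  okX (z / 2 ^ 100) (rowsB b c) (unM (z % 1125899906842624)) (unM (z / 1125899906842624 % 1125899906842624)) &&
    decide (0 < z / 2 ^ 100 ∧ z / 2 ^ 100 < 4)

/-- the starts of the blocks have nonzero digits -/
def stOK (b c : ℕ) : Bool := (List.range 5).all fun i => decide ((i = 0 ∨ b.testBit (i - 1) = true) → dg c i ≠ 0)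

/-- scalars -/
def ex (b c : ℕ) : Bool := (b == 31) && (c == 341 || c == 682 || c == 1023)

/-- check of the certificates of all `c` -/
def chkC (b : ℕ) : List ℕ → List ℕ → Bool
  | [], _ => true
  | c :: cs, [] => (!stOK b c || ex b c) && chkC b cs []
  | c :: cs, w :: ws => if stOK b c = true then (if ex b c = true then chkC b cs (w :: ws) else okC b c w && chkC b cs ws)
      else chkC b cs (w :: ws)

theorem chkC_spec {b : ℕ} : ∀ (cs ws : List ℕ), chkC b cs ws = true → ∀ c ∈ cs, stOK b c = true → ex b c = false →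
    ∃ w, okC b c w = true
  | [], _, _, c, hc, _, _ => absurd hc List.not_mem_nil
  | c₀ :: cs, [], h, c, hc, h1, h2 => by
    rw [chkC, Bool.and_eq_true] at h
    rcases List.mem_cons.1 hc with rfl | hc
    · rw [h1, h2] at h
      exact absurd h.1 (by decide)
    · exact chkC_spec cs [] h.2 c hc h1 h2
  | c₀ :: cs, w :: ws, h, c, hc, h1, h2 => by
    rw [chkC] at h
    by_cases h3 : stOK b c₀ = true
    · rw [if_pos h3] at h
      by_cases h4 : ex b c₀ = true
      · rw [if_pos h4] at h
        rcases List.mem_cons.1 hc with rfl | hc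
        · rw [h4] at h2; exact Bool.noConfusion h2
        · exact chkC_spec cs _ h c hc h1 h2
      · rw [if_neg h4, Bool.and_eq_true] at h
        rcases List.mem_cons.1 hc with rfl | hc
        · exact ⟨w, h.1⟩
        · exact chkC_spec cs ws h.2 c hc h1 h2
    · rw [if_neg h3] at h
      rcases List.mem_cons.1 hc with rfl | hc
      · exact absurd h1 h3
      · exact chkC_spec cs _ h c hc h1 h2

end Cfsg.Agent.H85.Pw.CertFour
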