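import Cfsg.Agent.H85.Pw.CertFourA
import Cfsg.Agent.H85.Pw.CertFourB
import Cfsg.Agent.H85.Pw.CertFourC
import Cfsg.Agent.H85.Pw.CertFourD
import Cfsg.Agent.H162.GaussSL

/-!
# `SL_5(4)`: products of two elements of order `31` (S2465)

* `p5_4` : a non-scalar element of `SL_5(4)` is a product of two elements with characteristic polynomial
  `X ^ 5 + X ^ 2 + 1`;
* `p_five_four` : `L * U = X * Y`, `X`, `Y` with irreducible characteristic polynomials and `X ^ 31 = Y ^ 31 = 1`.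
-/

set_option autoImplicit false

namespace Cfsg.Agent.H85.Pw.CertFour

open Matrix Polynomial
open Cfsg.Agent.H934.MF (blk exists_blk en en_spec mono toP mono_monic mono_natDegree charpoly_of_vec irr_of_pow)

theorem all {b c : ℕ} (hb : 16 ≤ b) (hb' : b < 32) (hc : c < 1024) (h1 : stOK b c = true) (h2 : ex b c = false) :
    ∃ z, okC b c z = true := by
  have hm : c ∈ List.range 1024 := List.mem_range.2 hc
  interval_cases b
  · exact chkC_spec _ _ chk16 c hm h1 h2
  · exact chkC_spec _ _ chk17 c hm h1 h2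
  · exact chkC_spec _ _ chk18 c hm h1 h2
  · exact chkC_spec _ _ chk19 c hm h1 h2
  · exact chkC_spec _ _ chk20 c hm h1 h2
  · exact chkC_spec _ _ chk21 c hm h1 h2
  · exact chkC_spec _ _ chk22 c hm h1 h2
  · exact chkC_spec _ _ chk23 c hm h1 h2
  · exact chkC_spec _ _ chk24 c hm h1 h2
  · exact chkC_spec _ _ chk25 c hm h1 h2
  · exact chkC_spec _ _ chk26 c hm h1 h2
  · exact chkC_spec _ _ chk27 c hm h1 h2
  · exact chkC_spec _ _ chk28 c hm h1 h2
  · exact chkC_spec _ _ chk29 c hm h1 h2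
  · exact chkC_spec _ _ chk30 c hm h1 h2
  · exact chkC_spec _ _ chk31 c hm h1 h2

variable {K : Type*} [Field K]

/-- the polynomial -/
noncomputable def pF (K : Type*) [Field K] : K[X] := X ^ 5 + X ^ 2 + 1

/-- the reciprocal polynomial -/
noncomputable def pG (K : Type*) [Field K] : K[X] := X ^ 5 + X ^ 3 + 1

/-- lower coefficients of `pG` -/
def lG : List Bool := [true, false, false, true, false]

theorem mono_F : mono (zl K lF) = pF K := by
  rw [zl, lF, pF]
  simp only [List.map_cons, List.map_nil, mono, List.cons_append, List.nil_append, toP]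
  simp
  ring

theorem mono_G : mono (zl K lG) = pG K := by
  rw [zl, lG, pG]
  simp only [List.map_cons, List.map_nil, mono, List.cons_append, List.nil_append, toP]
  simp
  ring

theorem two_pol (h2 : (2 : K) = 0) : (2 : K[X]) = 0 := by
  rw [← C_ofNat, h2, C_0]

theorem pF_dvd (h2 : (2 : K) = 0) : pF K ∣ X ^ 31 - 1 := by
  have h3 := two_pol h2
  refine ⟨X ^ 26 + X ^ 23 + X ^ 21 + X ^ 20 + X ^ 17 + X ^ 16 + X ^ 15 + X ^ 14 + X ^ 13 + X ^ 9 + X ^ 8 + X ^ 6 +
    X ^ 5 + X ^ 4 + X ^ 2 + 1, ?_⟩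
  rw [pF]
  linear_combination (-(X ^ 0 + X ^ 2 + X ^ 4 + X ^ 5 + X ^ 6 + X ^ 7 + X ^ 8 + X ^ 9 + X ^ 10 + X ^ 11 + X ^ 13 +
    X ^ 14 + X ^ 15 + X ^ 16 + X ^ 17 + X ^ 18 + X ^ 19 + X ^ 20 + X ^ 21 + X ^ 22 + X ^ 23 + X ^ 25 + X ^ 26 +
    X ^ 28)) * h3

theorem pG_dvd (h2 : (2 : K) = 0) : pG K ∣ X ^ 31 - 1 := by
  have h3 := two_pol h2
  refine ⟨X ^ 26 + X ^ 24 + X ^ 22 + X ^ 21 + X ^ 20 + X ^ 18 + X ^ 17 + X ^ 13 + X ^ 12 + X ^ 11 + X ^ 10 + X ^ 9 +
    X ^ 6 + X ^ 5 + X ^ 3 + 1, ?_⟩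
  rw [pG]
  linear_combination (-(X ^ 0 + X ^ 3 + X ^ 5 + X ^ 6 + X ^ 8 + X ^ 9 + X ^ 10 + X ^ 11 + X ^ 12 + X ^ 13 + X ^ 14 +
    X ^ 15 + X ^ 16 + X ^ 17 + X ^ 18 + X ^ 20 + X ^ 21 + X ^ 22 + X ^ 23 + X ^ 24 + X ^ 25 + X ^ 26 + X ^ 27 +
    X ^ 29)) * h3

theorem pF_monic : (pF K).Monic := by rw [← mono_F]; exact mono_monic _

theorem pG_monic : (pG K).Monic := by rw [← mono_G]; exact mono_monic _

theorem pF_deg : (pF K).natDegree = 5 := by rw [← mono_F, mono_natDegree]; rfl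

theorem pG_deg : (pG K).natDegree = 5 := by rw [← mono_G, mono_natDegree]; rfl

theorem irr_aux [Finite K] (hK : Nat.card K = 4) {f : K[X]} (hm : f.Monic) (hd : f.natDegree = 5)
    (h1 : f ∣ X ^ 31 - 1) (he : f.eval 1 ≠ 0) : Irreducible f := by
  have : Fintype K := Fintype.ofFinite K
  have hF' : Fintype.card K = 4 := by rw [← Nat.card_eq_fintype_card, hK]
  refine irr_of_pow hm hd (by norm_num) (N := 31) (e := 1) (by norm_num) h1 ?_ ?_
  · rw [pow_one, ← C_1]
    apply IsCoprime.symm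
    rw [(irreducible_X_sub_C (1 : K)).coprime_iff_not_dvd, dvd_iff_isRoot]
    exact he
  · intro m h1 h2
    rw [hF']
    have : m = 1 ∨ m = 2 := by omega
    rcases this with rfl | rfl <;> norm_num

theorem pF_irr [Finite K] (hK : Nat.card K = 4) (h2 : (2 : K) = 0) : Irreducible (pF K) := by
  refine irr_aux hK pF_monic pF_deg (pF_dvd h2) ?_
  have h3 : (pF K).eval 1 = 1 := by
    rw [pF]
    simp only [eval_add, eval_pow, eval_X, eval_one, one_pow]
    linear_combination h2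
  rw [h3]
  exact one_ne_zero

theorem pG_irr [Finite K] (hK : Nat.card K = 4) (h2 : (2 : K) = 0) : Irreducible (pG K) := by
  refine irr_aux hK pG_monic pG_deg (pG_dvd h2) ?_
  have h3 : (pG K).eval 1 = 1 := by
    rw [pG]
    simp only [eval_add, eval_pow, eval_X, eval_one, one_pow]
    linear_combination h2
  rw [h3]
  exact one_ne_zero

theorem exists_w [Finite K] (hK : Nat.card K = 4) : (2 : K) = 0 ∧ ∃ w : K, w ^ 2 = w + 1 ∧
    ∀ x : K, ∃ n < 4, co w n 0 = x := by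
  classical
  have : Fintype K := Fintype.ofFinite K
  have hF' : Fintype.card K = 4 := by rw [← Nat.card_eq_fintype_card, hK]
  have h4 : (4 : K) = 0 := by
    have h8 : ((Fintype.card K : ℕ) : K) = 0 := FiniteField.cast_card_eq_zero K
    rw [hF'] at h8
    exact_mod_cast h8
  have h2 : (2 : K) = 0 := by
    have h5 : (2 : K) * 2 = 0 := by rw [← h4]; norm_num
    rcases mul_eq_zero.1 h5 with h | h <;> exact h
  refine ⟨h2, ?_⟩
  obtain ⟨w, hw⟩ : ∃ w : K, w ∉ ({0, 1} : Finset K) := by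
    by_contra hcon
    push Not at hcon
    have h5 : (Finset.univ : Finset K) ⊆ {0, 1} := fun x _ => hcon x
    have h6 := Finset.card_le_card h5
    rw [Finset.card_univ, hF'] at h6
    have h7 : ({0, 1} : Finset K).card ≤ 2 := Finset.card_le_two
    omega
  rw [Finset.mem_insert, Finset.mem_singleton, not_or] at hw
  have h3 : w ^ 3 = 1 := by
    have := FiniteField.pow_card_sub_one_eq_one w hw.1
    rwa [hF'] at this
  have hw2 : w ^ 2 = w + 1 := by
    have h5 : (w - 1) * (w ^ 2 + w + 1) = 0 := by linear_combination h3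
    rcases mul_eq_zero.1 h5 with h | h
    · exact absurd (sub_eq_zero.1 h) hw.2
    · linear_combination h - (w + 1) * h2
  refine ⟨w, hw2, fun x => ?_⟩
  have h11 : (1 : K) + 1 = 0 := by rw [one_add_one_eq_two, h2]
  have h5 : ({0, 1, w, 1 + w} : Finset K) = Finset.univ := by
    apply Finset.eq_univ_of_card
    rw [hF', Finset.card_insert_of_notMem, Finset.card_insert_of_notMem, Finset.card_insert_of_notMem,
      Finset.card_singleton]
    · rw [Finset.mem_singleton]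
      intro h
      have : (1 : K) = 0 := by linear_combination -h
      exact one_ne_zero this
    · simp only [Finset.mem_insert, Finset.mem_singleton, not_or]
      refine ⟨fun h => hw.2 h.symm, fun h => hw.1 ?_⟩
      linear_combination -h
    · simp only [Finset.mem_insert, Finset.mem_singleton, not_or]
      refine ⟨zero_ne_one, fun h => hw.1 h.symm, fun h => hw.2 ?_⟩
      linear_combination -h - h11
  have hx : x ∈ ({0, 1, w, 1 + w} : Finset K) := by rw [h5]; exact Finset.mem_univ _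
  simp only [Finset.mem_insert, Finset.mem_singleton] at hx
  rcases hx with rfl | rfl | rfl | rfl
  · exact ⟨0, by norm_num, co_zero _ _⟩
  · exact ⟨1, by norm_num, by rw [co_two _ 1 (by norm_num)]; simp⟩
  · exact ⟨2, by norm_num, by rw [co_two _ 2 (by norm_num)]; simp⟩
  · exact ⟨3, by norm_num, by rw [co_two _ 3 (by norm_num)]; simp⟩

theorem co_ne (h2 : (2 : K) = 0) {w : K} (hw : w ^ 2 = w + 1) {s : ℕ} (h0 : 0 < s) (h4 : s < 4) :
    co w s 0 ^ 3 = 1 := by
  rw [co_two w s h4]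
  have h3 : s = 1 ∨ s = 2 ∨ s = 3 := by omega
  rcases h3 with rfl | rfl | rfl
  · simp
  · simp only [OfNat.ofNat_ne_zero, if_false, OfNat.ofNat_ne_one, if_true]
    linear_combination (w + 1) * hw + w * h2
  · simp only [OfNat.ofNat_ne_zero, if_false, OfNat.ofNat_ne_one, show (3 : ℕ) ≠ 2 by norm_num]
    linear_combination (w + 4) * hw + (4 * w + 2) * h2

theorem charpoly_det {M : Matrix (Fin 5) (Fin 5) K} (h2 : (2 : K) = 0) (hM : M.charpoly = pF K) : M.det = 1 := by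
  rw [det_eq_sign_charpoly_coeff, hM, Fintype.card_fin, pF]
  simp only [coeff_add, coeff_X_pow, coeff_one]
  norm_num
  linear_combination (-1 : K) * h2

theorem charpoly_det' {M : Matrix (Fin 5) (Fin 5) K} (h2 : (2 : K) = 0) (hM : M.charpoly = pG K) : M.det = 1 := by
  rw [det_eq_sign_charpoly_coeff, hM, Fintype.card_fin, pG]
  simp only [coeff_add, coeff_X_pow, coeff_one]
  norm_num
  linear_combination (-1 : K) * h2

/-- **`SL_5(4)`.** -/
theorem p5_4 [Finite K] (hK : Nat.card K = 4) (A : Matrix (Fin 5) (Fin 5) K) (hA : A.det = 1)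
    (hs : ∀ c : K, A ≠ c • (1 : Matrix (Fin 5) (Fin 5) K)) :
    ∃ X Y : Matrix (Fin 5) (Fin 5) K, A = X * Y ∧ X.charpoly = pF K ∧ Y.charpoly = pF K := by
  obtain ⟨h2, w, hw2, hall⟩ := exists_w hK
  obtain ⟨b, c, P, hb, hP, hAP⟩ := exists_blk (by norm_num : 0 < 5) A
  have hu : IsUnit P.det := hP.isUnit
  have hA' : A = P * blk b c * P⁻¹ := by
    rw [← hAP, Matrix.mul_assoc, Matrix.mul_nonsing_inv _ hu, Matrix.mul_one]
  have hdet : (blk b c).det = 1 := by
    have h1 := congrArg Matrix.det hAP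
    rw [Matrix.det_mul, Matrix.det_mul, hA, one_mul] at h1
    exact mul_left_cancel₀ hP (by rw [mul_one]; exact h1.symm)
  have hdig : ∀ i : Fin 5, ∃ n < 4, co w n 0 = c i := fun i => hall (c i)
  choose dgt hdl hdc using hdig
  obtain ⟨bN, hbN⟩ : ∃ bN, bN = Nat.ofBits b := ⟨_, rfl⟩
  obtain ⟨cN, hcN⟩ : ∃ cN, cN = dgt 0 + 4 * dgt 1 + 16 * dgt 2 + 64 * dgt 3 + 256 * dgt 4 := ⟨_, rfl⟩
  have hl0 := hdl 0
  have hl1 := hdl 1
  have hl2 := hdl 2
  have hl3 := hdl 3
  have hl4 := hdl 4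
  have hb' : ∀ i : Fin 5, b i = bN.testBit i := fun i => by
    rw [hbN, Nat.testBit_ofBits_lt _ _ i.2]
  have hdg : ∀ i : Fin 5, dg cN i = dgt i := by
    have k0 : cN / 2 ^ (2 * 0) % 4 = dgt 0 := by rw [hcN]; norm_num; omega
    have k1 : cN / 2 ^ (2 * 1) % 4 = dgt 1 := by rw [hcN]; norm_num; omega
    have k2 : cN / 2 ^ (2 * 2) % 4 = dgt 2 := by rw [hcN]; norm_num; omega
    have k3 : cN / 2 ^ (2 * 3) % 4 = dgt 3 := by rw [hcN]; norm_num; omega
    have k4 : cN / 2 ^ (2 * 4) % 4 = dgt 4 := by rw [hcN]; norm_num; omega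
    intro i
    fin_cases i
    exacts [k0, k1, k2, k3, k4]
  have hc' : ∀ i : Fin 5, c i = co w cN i := fun i => by rw [← co_dg, hdg, hdc]
  have hbl : bN < 32 := by rw [hbN]; exact Nat.ofBits_lt_two_pow _
  have hcl : cN < 1024 := by rw [hcN]; omega
  have hbt : bN.testBit 4 = true := by
    rw [← hb]; exact (hb' ⟨4, by norm_num⟩).symm
  have hbg : 16 ≤ bN := Nat.ge_two_pow_of_testBit hbt
  have hblk : blk b c = mat w (rowsB bN cN) := by
    rw [mat_rowsB w h2 hw2 hbt]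
    congr 1
    · funext i; exact hb' i
    · funext i; exact hc' i
  have hst : stOK bN cN = true := by
    rw [stOK, List.all_eq_true]
    intro i hi
    rw [List.mem_range] at hi
    rw [decide_eq_true_iff]
    intro hs' h0
    have hci : c ⟨i, hi⟩ = 0 := by
      rw [hc' ⟨i, hi⟩, ← co_dg]
      simp only
      rw [h0, co_zero]
    have h5 : (blk b c).det = 0 := by
      refine Matrix.det_eq_zero_of_row_eq_zero ⟨i, hi⟩ fun j => ?_
      rw [blk, Matrix.of_apply]
      by_cases hj : b j = true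
      · rw [if_pos hj, hci, ite_self]
      · rw [if_neg hj, if_neg]
        intro h4
        simp only at h4
        rcases hs' with hs' | hs'
        · omega
        · have h6 : i - 1 = j := by omega
          rw [h6, ← hb' j] at hs'
          exact hj hs'
    rw [h5] at hdet
    exact zero_ne_one hdet
  have hex : ex bN cN = false := by
    by_contra hcon
    rw [Bool.not_eq_false, ex, Bool.and_eq_true, Bool.or_eq_true, Bool.or_eq_true, beq_iff_eq, beq_iff_eq,
      beq_iff_eq, beq_iff_eq] at hcon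
    obtain ⟨h31, h341⟩ := hcon
    have hones : ∀ i : Fin 5, b i = true := fun i => by
      rw [hb' i, h31]
      fin_cases i <;> rfl
    have heq : ∀ i : Fin 5, c i = c 0 := by
      intro i
      rw [← hdc i, ← hdc 0, ← hdg i, ← hdg 0]
      rcases h341 with (h | h) | h <;> rw [h] <;> fin_cases i <;> rfl
    have h1 : blk b c = c 0 • (1 : Matrix (Fin 5) (Fin 5) K) := by
      ext i j
      rw [blk, Matrix.of_apply, if_pos (hones j), heq i, Matrix.smul_apply, smul_eq_mul]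
      by_cases hij : i = j
      · subst hij
        rw [if_pos, Matrix.one_apply_eq, mul_one]
        exact ⟨le_rfl, fun k h2 h3 => absurd h3 (not_lt.2 h2)⟩
      · rw [if_neg, Matrix.one_apply_ne hij, mul_zero]
        rintro ⟨h2, h3⟩
        have h4 := h3 i le_rfl (lt_of_le_of_ne h2 hij)
        rw [hones i] at h4
        exact Bool.noConfusion h4
    apply hs (c 0)
    rw [hA', h1, Matrix.mul_smul, Matrix.smul_mul, Matrix.mul_one, Matrix.mul_nonsing_inv _ hu]
  obtain ⟨z, hz⟩ := all hbg hbl hcl hst hex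
  rw [okC, Bool.and_eq_true, decide_eq_true_iff, okX, Bool.and_eq_true, Bool.and_eq_true, beq_iff_eq] at hz
  obtain ⟨⟨hw1, hw3, hw4⟩, hs0, hs4⟩ := hz
  obtain ⟨s, hse⟩ : ∃ s, s = z / 2 ^ 100 := ⟨_, rfl⟩
  obtain ⟨x, hx⟩ : ∃ x, x = unM (z % 1125899906842624) := ⟨_, rfl⟩
  obtain ⟨y, hy⟩ : ∃ y, y = unM (z / 1125899906842624 % 1125899906842624) := ⟨_, rfl⟩
  rw [← hx, ← hy, ← hse] at hw1
  rw [← hx] at hw3
  rw [← hy] at hw4
  rw [← hse] at hs0 hs4
  have hxl : x.length = 5 := by rw [hx]; rfl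
  have hyl : y.length = 5 := by rw [hy]; rfl
  have hirr : Irreducible (mono (zl K lF)) := by rw [mono_F]; exact pF_irr hK h2
  have cx : (mat w x).charpoly = pF K := by
    rw [← mono_F]; exact charpoly_of_kr w h2 hw2 hxl rfl hirr hw3
  have cy : (mat w y).charpoly = pF K := by
    rw [← mono_F]; exact charpoly_of_kr w h2 hw2 hyl rfl hirr hw4
  have hprod : mat w (mulR x y) = mat w x * mat w y := mat_mulR w h2 hw2 hxl hyl
  rw [hw1, mat_sm w h2 hw2 (length_rowsB _ _) hs4, ← hblk] at hprod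
  have ht3 : co w s 0 ^ 3 = 1 := co_ne h2 hw2 hs0 hs4
  have ht5 : co w s 0 ^ 5 = 1 := by
    have h6 := congrArg Matrix.det hprod
    rw [Matrix.det_smul, hdet, Matrix.det_mul, charpoly_det h2 cx, charpoly_det h2 cy, Fintype.card_fin, mul_one,
      mul_one] at h6
    exact h6
  have ht : co w s 0 = 1 := by
    have h6 : co w s 0 ^ 6 = 1 := by
      rw [show 6 = 3 * 2 by norm_num, pow_mul, ht3, one_pow]
    calc co w s 0 = co w s 0 ^ 5 * co w s 0 := by rw [ht5, one_mul]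
      _ = co w s 0 ^ 6 := by ring
      _ = 1 := h6
  rw [ht, one_smul] at hprod
  have hconj : ∀ Z : Matrix (Fin 5) (Fin 5) K, (P * Z * P⁻¹).charpoly = Z.charpoly := fun Z =>
    Matrix.charpoly_units_conj (M := Matrix.nonsingInvUnit P hu) Z
  refine ⟨P * mat w x * P⁻¹, P * mat w y * P⁻¹, ?_, by rw [hconj, cx], by rw [hconj, cy]⟩
  rw [hA', hprod]
  calc P * (mat w x * mat w y) * P⁻¹ = P * mat w x * (1 * mat w y) * P⁻¹ := by
        rw [Matrix.one_mul]; simp only [Matrix.mul_assoc]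
    _ = P * mat w x * P⁻¹ * (P * mat w y * P⁻¹) := by
      rw [← Matrix.nonsing_inv_mul _ hu]; simp only [Matrix.mul_assoc]

theorem pow_of_dvd {M : Matrix (Fin 5) (Fin 5) K} (h : M.charpoly ∣ X ^ 31 - 1) : M ^ 31 = 1 := by
  obtain ⟨q, hq⟩ := h
  have h1 := congrArg (aeval M) hq
  rw [map_mul, Matrix.aeval_self_charpoly, zero_mul, map_sub, map_pow, aeval_X, map_one, sub_eq_zero] at h1
  exact h1

/-- an element and its inverse -/
theorem p_one [Finite K] (hK : Nat.card K = 4) : ∃ X Y : Matrix (Fin 5) (Fin 5) K, 1 = X * Y ∧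
    X.charpoly = pF K ∧ Y.charpoly = pG K := by
  obtain ⟨h2, w, hw2, hall⟩ := exists_w hK
  have hirr : Irreducible (mono (zl K lF)) := by rw [mono_F]; exact pF_irr hK h2
  have hirr' : Irreducible (mono (zl K lG)) := by rw [mono_G]; exact pG_irr hK h2
  refine ⟨mat w [4, 16, 64, 256, 17], mat w [260, 1, 4, 16, 64], ?_, ?_, ?_⟩
  · rw [← mat_mulR w h2 hw2 rfl rfl]
    have h1 : mulR [4, 16, 64, 256, 17] [260, 1, 4, 16, 64] = [2 ^ (2 * 0), 2 ^ (2 * 1), 2 ^ (2 * 2), 2 ^ (2 * 3), 2 ^ (2 * 4)] := by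
      decide +kernel
    rw [h1]
    ext i j
    have h3 : ([2 ^ (2 * 0), 2 ^ (2 * 1), 2 ^ (2 * 2), 2 ^ (2 * 3), 2 ^ (2 * 4)] : List ℕ).getD (i : ℕ) 0 =
        2 ^ (2 * (i : ℕ)) := by
      fin_cases i <;> rfl
    rw [mat, Matrix.of_apply, h3, co_pow, Matrix.one_apply]
    exact if_congr Fin.ext_iff rfl rfl
  · rw [← mono_F]
    exact charpoly_of_kr w h2 hw2 rfl rfl hirr (by decide +kernel)
  · rw [← mono_G]
    exact charpoly_of_kr w h2 hw2 rfl rfl hirr' (by decide +kernel)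

/-- **`SL_5(4)`** -/
theorem p_five_four [Finite K] (hK : Nat.card K = 4) (v u : SpecialLinearGroup (Fin 5) K)
    (hv : v ∈ H162.GaussSL.LT 5 K) (hu : u ∈ H162.GaussSL.UT 5 K) :
    ∃ X Y : SpecialLinearGroup (Fin 5) K, v * u = X * Y ∧ Irreducible (X : Matrix (Fin 5) (Fin 5) K).charpoly ∧
      Irreducible (Y : Matrix (Fin 5) (Fin 5) K).charpoly ∧ X ^ 31 = 1 ∧ Y ^ 31 = 1 := by
  obtain ⟨h2, -⟩ := exists_w hK
  have hs : v * u = 1 ∨ ∀ c : K, ((v * u : SpecialLinearGroup (Fin 5) K) : Matrix (Fin 5) (Fin 5) K) ≠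
        c • (1 : Matrix (Fin 5) (Fin 5) K) := by
    by_cases h : v * u = 1
    · exact Or.inl h
    right
    intro c hc
    apply h
    have h1 : ((v * u : SpecialLinearGroup (Fin 5) K) : Matrix (Fin 5) (Fin 5) K) 0 0 = 1 := by
      have h2 : ((v * u : SpecialLinearGroup (Fin 5) K) : Matrix (Fin 5) (Fin 5) K) 0 0 =
          ∑ k, (v : Matrix (Fin 5) (Fin 5) K) 0 k * (u : Matrix (Fin 5) (Fin 5) K) k 0 := by
        rw [Matrix.SpecialLinearGroup.coe_mul, Matrix.mul_apply]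
      have e0 : ∀ k : Fin 5, k ≠ 0 → (u : Matrix (Fin 5) (Fin 5) K) k 0 = 0 := fun k hk =>
        hu.1 (i := k) (j := 0) (Fin.pos_of_ne_zero hk)
      have e3 : (u : Matrix (Fin 5) (Fin 5) K) 0 0 = 1 := hu.2 0
      have e4 : (v : Matrix (Fin 5) (Fin 5) K) 0 0 = 1 := hv.2 0
      rw [h2, Finset.sum_eq_single 0 (fun k _ hk => by rw [e0 k hk, mul_zero]) (fun h => absurd (Finset.mem_univ _) h),
        e3, e4, mul_one]
    rw [hc, Matrix.smul_apply, Matrix.one_apply_eq, smul_eq_mul, mul_one] at h1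
    apply Subtype.ext
    rw [hc, h1, one_smul]
    exact Matrix.SpecialLinearGroup.coe_one.symm
  obtain ⟨A, B, hAB, hA, hB⟩ : ∃ A B : Matrix (Fin 5) (Fin 5) K,
      ((v * u : SpecialLinearGroup (Fin 5) K) : Matrix (Fin 5) (Fin 5) K) = A * B ∧
      (A.charpoly = pF K ∨ A.charpoly = pG K) ∧ (B.charpoly = pF K ∨ B.charpoly = pG K) := by
    rcases hs with h | h
    · obtain ⟨A, B, h3, h4, h5⟩ := p_one (K := K) hK
      refine ⟨A, B, ?_, Or.inl h4, Or.inr h5⟩
      rw [h, ← h3]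
      exact Matrix.SpecialLinearGroup.coe_one
    · obtain ⟨A, B, h3, h4, h5⟩ := p5_4 hK _ (v * u).2 h
      exact ⟨A, B, h3, Or.inl h4, Or.inl h5⟩
  have key : ∀ M : Matrix (Fin 5) (Fin 5) K, (M.charpoly = pF K ∨ M.charpoly = pG K) →
      M.det = 1 ∧ Irreducible M.charpoly ∧ M ^ 31 = 1 := by
    rintro M (h | h)
    · exact ⟨charpoly_det h2 h, by rw [h]; exact pF_irr hK h2, pow_of_dvd (by rw [h]; exact pF_dvd h2)⟩
    · exact ⟨charpoly_det' h2 h, by rw [h]; exact pG_irr hK h2, pow_of_dvd (by rw [h]; exact pG_dvd h2)⟩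
  obtain ⟨a1, a2, a3⟩ := key A hA
  obtain ⟨b1, b2, b3⟩ := key B hB
  obtain ⟨X', rfl⟩ : ∃ X' : SpecialLinearGroup (Fin 5) K, (X' : Matrix (Fin 5) (Fin 5) K) = A := ⟨⟨A, a1⟩, rfl⟩
  obtain ⟨Y', rfl⟩ : ∃ Y' : SpecialLinearGroup (Fin 5) K, (Y' : Matrix (Fin 5) (Fin 5) K) = B := ⟨⟨B, b1⟩, rfl⟩
  refine ⟨X', Y', Subtype.ext (hAB.trans (Matrix.SpecialLinearGroup.coe_mul X' Y').symm), a2, b2,
    Subtype.ext ?_, Subtype.ext ?_⟩
  · exact (Matrix.SpecialLinearGroup.coe_pow X' 31).trans (a3.trans Matrix.SpecialLinearGroup.coe_one.symm)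
  · exact (Matrix.SpecialLinearGroup.coe_pow Y' 31).trans (b3.trans Matrix.SpecialLinearGroup.coe_one.symm)

end Cfsg.Agent.H85.Pw.CertFour
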