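import Cfsg.Agent.H122.Pw.Six8
import Cfsg.Agent.H85.Pw.PFive
import Cfsg.Agent.H85.Pw.PThree

/-!
# `E₈(4)`: elements of order dividing `6` (S2465)
-/

set_option autoImplicit false

namespace Cfsg.Agent.H85.Pw

open Cfsg.Lie Cfsg.Agent.H78.Pw Cfsg.Agent.H122.Pw

universe u

variable {K : Type u} [Field K] [Finite K]

theorem pi_five_four (hK : Nat.card K = 4) : PI 5 K 341 := by
  intro L hL U hU
  obtain ⟨X, Y, h, hX, hY, hX', hY'⟩ := CertFour.p_five_four hK L U hL hU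
  refine ⟨X, Y, h, ⟨hX, ?_⟩, hY, ?_⟩
  · rw [show 341 = 31 * 11 by norm_num, pow_mul, hX', one_pow]
  · rw [show 341 = 31 * 11 by norm_num, pow_mul, hY', one_pow]

theorem pi_three_four (hK : Nat.card K = 4) : PI 3 K 7 := by
  intro L hL U hU
  obtain ⟨X, Y, h, hX, hY, hX', hY'⟩ := PThree.p_three_four hK L U hL hU
  exact ⟨X, Y, h, ⟨hX, hX'⟩, hY, hY'⟩

/-- **`E₈(4)`** -/
theorem six_E8_4 (hK : Nat.card K = 4) : All 6 ↥(chevE8.group K) :=
  six_E8_four hK (pi_five_four hK) (pi_three_four hK)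

end Cfsg.Agent.H85.Pw
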