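import Cfsg.Agent.H85.Pw.ESevenThree
import Cfsg.Agent.H85.Pw.IrrThree
import Cfsg.Agent.H85.Pw.Cub
import Cfsg.Agent.H126.PwO.FiveThree

/-!
# `E_7(3)`: products of two elements of order prime to `6` (S2465)

* `pairs_E7_three` : every element of `E_7(3)` is `a b`, `a ^ 143 = b ^ 143 = 1`;
* `six_E7_three` : `All 6 (E_7(3))`.
-/

set_option autoImplicit false
set_option linter.unusedSectionVars false

namespace Cfsg.Agent.H85.Pw.ESevenThree

open Cfsg.Lie Cfsg.Agent.H162.GaussSL Cfsg.Agent.H78.Pw Cfsg.Agent.H85.Pw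
open Polynomial (X C)

universe u

theorem Ea_inv {N : ℕ} {K' : Type} [Field K'] {lam : Fin 5 → K'} (h : Ea N lam) :
    (∀ a, lam a ≠ 0) ∧ Ea N fun a => (lam a)⁻¹ := by
  refine ⟨ne_zero_of_prod h.1, ?_, fun a => ?_, fun a => ?_, fun a b hab => ?_⟩
  · rw [Finset.prod_inv_distrib, h.1, inv_one]
  · rw [inv_pow, h.2.1, inv_one]
  · rw [ne_eq, inv_eq_one]
    exact h.2.2.1 a
  · rw [← mul_inv, ne_eq, inv_eq_one]
    exact h.2.2.2 a b hab

/-- nonscalar elements of `SL_5(3)` -/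
theorem p_five_three {K : Type u} [Field K] [Finite K] (hK : Nat.card K = 3) (A : Matrix.SpecialLinearGroup (Fin 5) K)
    (hA : ∀ c : K, A.1 ≠ c • (1 : Matrix (Fin 5) (Fin 5) K)) :
    ∃ x y : Matrix.SpecialLinearGroup (Fin 5) K, A = x * y ∧ Irreducible x.1.charpoly ∧ Irreducible y.1.charpoly ∧
      x ^ 11 = 1 ∧ y ^ 11 = 1 := by
  obtain ⟨hch, -⟩ := Cfsg.Agent.H374.Ore.Sl3.exists_cast (K := K) hK
  obtain ⟨x, y, h1, h2, h3⟩ := Cfsg.Agent.H126.PwO.Five.p5_3 hK A.1 A.2 hA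
  have key : ∀ z : Matrix (Fin 5) (Fin 5) K, z.charpoly = Cfsg.Agent.H126.PwO.Five.pF K →
      z.det = 1 ∧ Irreducible z.charpoly ∧ z ^ 11 = 1 := by
    intro z hz
    refine ⟨?_, ?_, ?_⟩
    · rw [Matrix.det_eq_sign_charpoly_coeff, hz, Cfsg.Agent.H126.PwO.Five.pF, Fintype.card_fin]
      have h3 : (3 : K) = 0 := by
        have : ((3 : ℕ) : K) = 0 := CharP.cast_eq_zero K 3
        exact_mod_cast this
      simp
      linear_combination -h3
    · rw [hz]
      exact Cfsg.Agent.H126.PwO.Five.pF_irr hK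
    · exact Cfsg.Agent.H962.PP.pow_eq_one_of_charpoly (by
        rw [hz]
        exact Cfsg.Agent.H126.PwO.Five.pF_dvd)
  obtain ⟨hx, hxi, hx11⟩ := key x h2
  obtain ⟨hy, hyi, hy11⟩ := key y h3
  exact ⟨⟨x, hx⟩, ⟨y, hy⟩, Subtype.ext h1, hxi, hyi,
    Subtype.ext ((Matrix.SpecialLinearGroup.coe_pow _ 11).trans (hx11.trans Matrix.SpecialLinearGroup.coe_one.symm)),
    Subtype.ext ((Matrix.SpecialLinearGroup.coe_pow _ 11).trans (hy11.trans Matrix.SpecialLinearGroup.coe_one.symm))⟩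

/-- `L * U` is one or not scalar -/
theorem lu_five {K : Type u} [Field K] {L U : Matrix.SpecialLinearGroup (Fin 5) K} (hL : L ∈ LT 5 K) (hU : U ∈ UT 5 K)
    (h : L * U ≠ 1) (c : K) : (L * U).1 ≠ c • (1 : Matrix (Fin 5) (Fin 5) K) := by
  intro hc
  apply h
  have h1 : ((L * U : Matrix.SpecialLinearGroup (Fin 5) K) : Matrix (Fin 5) (Fin 5) K) 0 0 = 1 := by
    have h2 : ((L * U : Matrix.SpecialLinearGroup (Fin 5) K) : Matrix (Fin 5) (Fin 5) K) 0 0 =
        ∑ k, (L : Matrix (Fin 5) (Fin 5) K) 0 k * (U : Matrix (Fin 5) (Fin 5) K) k 0 := by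
      rw [Matrix.SpecialLinearGroup.coe_mul, Matrix.mul_apply]
    have e1 : (U : Matrix (Fin 5) (Fin 5) K) 1 0 = 0 := hU.1 (i := 1) (j := 0) (by decide)
    have e2 : (U : Matrix (Fin 5) (Fin 5) K) 2 0 = 0 := hU.1 (i := 2) (j := 0) (by decide)
    have e3 : (U : Matrix (Fin 5) (Fin 5) K) 3 0 = 0 := hU.1 (i := 3) (j := 0) (by decide)
    have e4 : (U : Matrix (Fin 5) (Fin 5) K) 4 0 = 0 := hU.1 (i := 4) (j := 0) (by decide)
    have e5 : (U : Matrix (Fin 5) (Fin 5) K) 0 0 = 1 := hU.2 0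
    have e6 : (L : Matrix (Fin 5) (Fin 5) K) 0 0 = 1 := hL.2 0
    rw [h2, Fin.sum_univ_five, e1, e2, e3, e4, e5, e6]
    simp
  rw [hc, Matrix.smul_apply, Matrix.one_apply_eq, smul_eq_mul, mul_one] at h1
  apply Subtype.ext
  rw [hc, h1, one_smul]
  exact Matrix.SpecialLinearGroup.coe_one.symm

/-- **`E_7(3)`** -/
theorem pairs_E7_three {K : Type u} [Field K] [Finite K] (hK : Nat.card K = 3) (g : ↥(chevE7.group K)) :
    ∃ a b : ↥(chevE7.group K), g = a * b ∧ a ^ 143 = 1 ∧ b ^ 143 = 1 := by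
  obtain ⟨p, hpc⟩ := CharP.exists K
  have hpp : Fact p.Prime := ⟨(CharP.char_is_prime_or_zero K p).resolve_right (CharP.char_ne_zero_of_finite K p)⟩
  have hK' : Nat.card (FiniteField.Extension K p 15) = Nat.card K ^ 15 := FiniteField.natCard_extension K p 15
  obtain ⟨φ₁, hφ₁⟩ := exists_A K
  obtain ⟨φ₂, hφ₂⟩ := exists_B K
  have k1 : ∀ x : Matrix.SpecialLinearGroup (Fin 5) K, Irreducible x.1.charpoly → x ^ 11 = 1 →
      Ev (algebraMap K (FiniteField.Extension K p 15)) (Ea 11) x := by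
    intro x hx hN
    refine ev_spec hK' (by norm_num) (by norm_num) hx fun z h1 h2 h3 h4 => ?_
    obtain ⟨h5, h6⟩ := two_ne h1 h2
    refine ⟨h3, fun a => ?_, h5, h6⟩
    rw [← pow_mul, mul_comm, pow_mul, h4 _ hN, one_pow]
  have k2 : ∀ x : Matrix.SpecialLinearGroup (Fin 3) K, Irreducible x.1.charpoly → x ^ 13 = 1 →
      Ev (algebraMap K (FiniteField.Extension K p 15)) (Eb 13) x := by
    intro x hx hN
    refine ev_spec hK' (by norm_num) (by norm_num) hx fun z h1 h2 h3 h4 a => ?_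
    rw [← pow_mul, mul_comm, pow_mul, h4 _ hN, one_pow]
  refine TwoS.pairs_of_two h7 T₁ T₂ sub com hφ₁ hφ₂ (algebraMap K (FiniteField.Extension K p 15)) (by norm_num)
    (Cfsg.Agent.S1054.result chevE7 (by simp)) Cfsg.Agent.Nodes.ChevChart.irr7 (E₁ := Ea 11) (E₂ := Eb 13)
    (fun lam h₁ mu h₂ q hq hk => out_ne (by norm_num) h₁ h₂ hq hk) (fun lam h a => ?_) (fun mu h a => ?_) ?_ ?_ g
  · rw [show 143 = 11 * 13 by norm_num, pow_mul, h.2.1, one_pow]
  · rw [show 143 = 13 * 11 by norm_num, pow_mul, h, one_pow]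
  · intro L hL U hU
    by_cases h : L * U = 1
    · obtain ⟨x, y, -, h1, -, h2, -⟩ := p_five_three hK
        (Matrix.SpecialLinearGroup.transvection (show (0 : Fin 5) ≠ 1 by decide) (1 : K)) (by
          intro c hc
          have h1 := congrFun (congrFun hc 0) 1
          rw [Matrix.smul_apply, Matrix.one_apply_ne (by decide), smul_zero] at h1
          simp [Matrix.SpecialLinearGroup.transvection, Matrix.transvection] at h1)
      exact ⟨x, x⁻¹, by rw [h, mul_inv_cancel], k1 x h1 h2, ev_inv (fun lam => Ea_inv) (k1 x h1 h2)⟩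
    · obtain ⟨x, y, h1, h2, h3, h4, h5⟩ := p_five_three hK (L * U) (lu_five hL hU h)
      exact ⟨x, y, h1, k1 x h2 h4, k1 y h3 h5⟩
  · intro L _ U _
    obtain ⟨x, y, h1, h2, h3, h4, h5⟩ := p_three_three hK (L * U)
    exact ⟨x, y, h1, k2 x h2 h4, k2 y h3 h5⟩

/-- **`All 6 (E_7(3))`** -/
theorem six_E7_three {K : Type u} [Field K] [Finite K] (hK : Nat.card K = 3) : All 6 ↥(chevE7.group K) :=
  all_of_pairs (N := 143) (by norm_num) (pairs_E7_three hK)

end Cfsg.Agent.H85.Pw.ESevenThree
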