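import Cfsg.Agent.H122.Pw.Six8
import Cfsg.Agent.H126.M3.Main
import Cfsg.Agent.H934.MF.Poly

/-!
# The field with nine elements: irreducible quintics, `SL_3(9)` (S2465)
-/

set_option autoImplicit false
set_option maxRecDepth 100000

namespace Cfsg.Agent.H85.Pw.Nine

open Polynomial
open Cfsg.Agent.H934.MF (irr_of_pow)

universe u

variable {K : Type u} [Field K]

theorem three_pol (h3 : (3 : K) = 0) : (3 : K[X]) = 0 := by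
  rw [← C_ofNat, h3, C_0]

theorem three_eq_zero [Finite K] (hK : Nat.card K = 9) : (3 : K) = 0 := by
  have : Fintype K := Fintype.ofFinite K
  have h9 : (9 : K) = 0 := by
    have h8 : ((Fintype.card K : ℕ) : K) = 0 := FiniteField.cast_card_eq_zero K
    rw [← Nat.card_eq_fintype_card, hK] at h8
    exact_mod_cast h8
  have h5 : (3 : K) * 3 = 0 := by rw [← h9]; norm_num
  rcases mul_eq_zero.1 h5 with h | h <;> exact h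

theorem irr_aux [Finite K] (hK : Nat.card K = 9) {f : K[X]} (hm : f.Monic) (hd : f.natDegree = 5)
    (h1 : f ∣ X ^ 121 - 1) (he : f.eval 1 ≠ 0) : Irreducible f := by
  have : Fintype K := Fintype.ofFinite K
  have hF' : Fintype.card K = 9 := by rw [← Nat.card_eq_fintype_card, hK]
  refine irr_of_pow hm hd (by norm_num) (N := 121) (e := 1) (by norm_num) h1 ?_ ?_
  · rw [pow_one, ← C_1]
    apply IsCoprime.symm
    rw [(irreducible_X_sub_C (1 : K)).coprime_iff_not_dvd, dvd_iff_isRoot]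
    exact he
  · intro m h1 h2
    rw [hF']
    have : m = 1 ∨ m = 2 := by omega
    rcases this with rfl | rfl <;> norm_num

/-- a quintic -/
noncomputable def qA (K : Type*) [Field K] : K[X] := 2 + 2 * X + X ^ 2 + 2 * X ^ 3 + X ^ 5

theorem qA_dvd (h3 : (3 : K) = 0) : qA K ∣ X ^ 11 - 1 := by
  have h3 := three_pol h3
  refine ⟨1 + 2 * X + 2 * X ^ 2 + 2 * X ^ 3 + X ^ 4 + X ^ 6, ?_⟩
  rw [qA]
  linear_combination (-(1 + 2 * X + 3 * X ^ 2 + 4 * X ^ 3 + 4 * X ^ 4 + 3 * X ^ 5 + 3 * X ^ 6 + 2 * X ^ 7 + X ^ 8 + X ^ 9)) * h3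

theorem qA_eval (h3 : (3 : K) = 0) : (qA K).eval 1 ≠ 0 := by
  have h1 : (qA K).eval 1 = 2 := by
    rw [qA]
    simp only [eval_add, eval_mul, eval_pow, eval_X, eval_ofNat, one_pow]
    linear_combination 2 * h3
  rw [h1]
  intro h
  have : (1 : K) = 0 := by linear_combination h3 - h
  exact one_ne_zero this

theorem qA_deg : (qA K).natDegree = 5 := by
  rw [qA]
  compute_degree!

theorem qA_monic : (qA K).Monic := by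
  rw [qA]
  monicity!

/-- a quintic -/
noncomputable def qB (K : Type*) [Field K] : K[X] := 2 + X ^ 2 + 2 * X ^ 3 + X ^ 4 + X ^ 5

theorem qB_dvd (h3 : (3 : K) = 0) : qB K ∣ X ^ 11 - 1 := by
  have h3 := three_pol h3
  refine ⟨1 + X ^ 2 + 2 * X ^ 3 + 2 * X ^ 4 + 2 * X ^ 5 + X ^ 6, ?_⟩
  rw [qB]
  linear_combination (-(1 + X ^ 2 + 2 * X ^ 3 + 2 * X ^ 4 + 3 * X ^ 5 + 3 * X ^ 6 + 3 * X ^ 7 + 3 * X ^ 8 + 2 * X ^ 9 + X ^ 10)) * h3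

theorem qB_eval (h3 : (3 : K) = 0) : (qB K).eval 1 ≠ 0 := by
  have h1 : (qB K).eval 1 = 1 := by
    rw [qB]
    simp only [eval_add, eval_mul, eval_pow, eval_X, eval_ofNat, one_pow]
    linear_combination 2 * h3
  rw [h1]
  intro h
  have : (1 : K) = 0 := by linear_combination h
  exact one_ne_zero this

theorem qB_deg : (qB K).natDegree = 5 := by
  rw [qB]
  compute_degree!

theorem qB_monic : (qB K).Monic := by
  rw [qB]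
  monicity!

/-- a quintic -/
noncomputable def qC (K : Type*) [Field K] : K[X] := 2 + 2 * X ^ 2 + 2 * X ^ 4 + X ^ 5

set_option maxHeartbeats 4000000 in
theorem qC_dvd (h3 : (3 : K) = 0) : qC K ∣ X ^ 121 - 1 := by
  have h3 := three_pol h3
  refine ⟨1 + 2 * X ^ 2 + X ^ 5 + X ^ 6 + X ^ 7 + 2 * X ^ 8 + X ^ 9 + X ^ 10 + 2 * X ^ 11 + X ^ 12 + 2 * X ^ 13 + 2 *
    X ^ 14 + 2 * X ^ 16 + 2 * X ^ 17 + X ^ 18 + X ^ 22 + X ^ 23 + 2 * X ^ 24 + 2 * X ^ 25 + X ^ 27 + 2 * X ^ 28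
    + 2 * X ^ 29 + 2 * X ^ 32 + X ^ 36 + 2 * X ^ 37 + 2 * X ^ 38 + X ^ 39 + X ^ 41 + X ^ 44 + 2 * X ^ 45 + X ^
    47 + 2 * X ^ 48 + X ^ 49 + X ^ 51 + 2 * X ^ 52 + 2 * X ^ 54 + 2 * X ^ 55 + X ^ 58 + X ^ 60 + X ^ 62 + X ^ 63
    + X ^ 64 + X ^ 66 + 2 * X ^ 68 + X ^ 69 + X ^ 72 + X ^ 73 + 2 * X ^ 75 + 2 * X ^ 76 + X ^ 77 + 2 * X ^ 78 +
    X ^ 80 + X ^ 81 + X ^ 82 + X ^ 83 + X ^ 84 + 2 * X ^ 85 + 2 * X ^ 86 + X ^ 87 + X ^ 88 + X ^ 89 + 2 * X ^ 90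
    + X ^ 92 + X ^ 94 + 2 * X ^ 95 + X ^ 96 + 2 * X ^ 97 + X ^ 98 + 2 * X ^ 101 + X ^ 102 + 2 * X ^ 103 + 2 * X
    ^ 104 + 2 * X ^ 105 + 2 * X ^ 106 + X ^ 108 + 2 * X ^ 110 + 2 * X ^ 111 + 2 * X ^ 113 + X ^ 114 + X ^ 115 +
    X ^ 116, ?_⟩
  rw [qC]
  linear_combination (-(1 + 2 * X ^ 2 + 2 * X ^ 4 + X ^ 5 + 2 * X ^ 6 + 2 * X ^ 7 + 2 * X ^ 8 + 2 * X ^ 9 + 3 * X ^ 10 + 3 * X ^ 11
    + 3 * X ^ 12 + 4 * X ^ 13 + 3 * X ^ 14 + 3 * X ^ 15 + 4 * X ^ 16 + 3 * X ^ 17 + 4 * X ^ 18 + 2 * X ^ 19 + 2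
    * X ^ 20 + 2 * X ^ 21 + 2 * X ^ 22 + X ^ 23 + 2 * X ^ 24 + 2 * X ^ 25 + 2 * X ^ 26 + 3 * X ^ 27 + 3 * X ^ 28
    + 4 * X ^ 29 + 2 * X ^ 30 + 2 * X ^ 31 + 3 * X ^ 32 + 2 * X ^ 33 + 2 * X ^ 34 + 2 * X ^ 36 + 2 * X ^ 37 + 2
    * X ^ 38 + 2 * X ^ 39 + 2 * X ^ 40 + 3 * X ^ 41 + 2 * X ^ 42 + 2 * X ^ 43 + X ^ 44 + 2 * X ^ 45 + X ^ 46 + 2
    * X ^ 47 + 2 * X ^ 48 + 3 * X ^ 49 + 2 * X ^ 50 + 2 * X ^ 51 + 3 * X ^ 52 + 2 * X ^ 53 + 3 * X ^ 54 + 2 * X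
    ^ 55 + 3 * X ^ 56 + 2 * X ^ 57 + 2 * X ^ 58 + 2 * X ^ 59 + 2 * X ^ 60 + 2 * X ^ 62 + X ^ 63 + 2 * X ^ 64 + X
    ^ 65 + 2 * X ^ 66 + X ^ 67 + 3 * X ^ 68 + X ^ 69 + 2 * X ^ 70 + X ^ 71 + 2 * X ^ 72 + 2 * X ^ 73 + X ^ 74 +
    2 * X ^ 75 + 2 * X ^ 76 + 3 * X ^ 77 + 3 * X ^ 78 + 2 * X ^ 79 + 4 * X ^ 80 + 2 * X ^ 81 + 3 * X ^ 82 + 2 *
    X ^ 83 + 2 * X ^ 84 + 3 * X ^ 85 + 3 * X ^ 86 + 3 * X ^ 87 + 3 * X ^ 88 + 3 * X ^ 89 + 4 * X ^ 90 + 2 * X ^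
    91 + 3 * X ^ 92 + X ^ 93 + 3 * X ^ 94 + 2 * X ^ 95 + 2 * X ^ 96 + 3 * X ^ 97 + 2 * X ^ 98 + 3 * X ^ 99 + 2 *
    X ^ 100 + 3 * X ^ 101 + 2 * X ^ 102 + 3 * X ^ 103 + 2 * X ^ 104 + 4 * X ^ 105 + 4 * X ^ 106 + 3 * X ^ 107 +
    4 * X ^ 108 + 2 * X ^ 109 + 4 * X ^ 110 + 2 * X ^ 111 + 2 * X ^ 112 + 3 * X ^ 113 + 2 * X ^ 114 + 4 * X ^
    115 + 2 * X ^ 116 + 2 * X ^ 117 + 2 * X ^ 118 + X ^ 119 + X ^ 120)) * h3

theorem qC_eval (h3 : (3 : K) = 0) : (qC K).eval 1 ≠ 0 := by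
  have h1 : (qC K).eval 1 = 1 := by
    rw [qC]
    simp only [eval_add, eval_mul, eval_pow, eval_X, eval_ofNat, one_pow]
    linear_combination 2 * h3
  rw [h1]
  intro h
  have : (1 : K) = 0 := by linear_combination h
  exact one_ne_zero this

theorem qC_deg : (qC K).natDegree = 5 := by
  rw [qC]
  compute_degree!

theorem qC_monic : (qC K).Monic := by
  rw [qC]
  monicity!

/-- quintics with constant term `-1` and given coefficient of `X ^ 4` in the prime field -/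
theorem quintic_nine [Finite K] (hK : Nat.card K = 9) {t : K} (ht : t = 0 ∨ t = 1 ∨ t = -1) : ∃ f : K[X], f.Monic ∧
    f.natDegree = 5 ∧ Irreducible f ∧ f.coeff 0 = -1 ∧ f.coeff 4 = t ∧ f ∣ X ^ 121 - 1 := by
  have h3 := three_eq_zero hK
  have h11 : ∀ f : K[X], f ∣ X ^ 11 - 1 → f ∣ X ^ 121 - 1 := fun f hf => by
    refine hf.trans ?_
    have := sub_dvd_pow_sub_pow ((X : K[X]) ^ 11) 1 11
    rwa [one_pow, ← pow_mul] at this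
  have h2 : (2 : K) = -1 := by linear_combination h3
  rcases ht with rfl | rfl | rfl
  · refine ⟨qA K, qA_monic, qA_deg, irr_aux hK qA_monic qA_deg (h11 _ (qA_dvd h3)) (qA_eval h3), ?_, ?_,
      h11 _ (qA_dvd h3)⟩
    · rw [qA, ← h2]; simp [coeff_X, coeff_X_pow]
    · rw [qA]; simp [coeff_X, coeff_X_pow]
  · refine ⟨qB K, qB_monic, qB_deg, irr_aux hK qB_monic qB_deg (h11 _ (qB_dvd h3)) (qB_eval h3), ?_, ?_,
      h11 _ (qB_dvd h3)⟩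
    · rw [qB, ← h2]; simp [coeff_X_pow]
    · rw [qB]; simp [coeff_X_pow]
  · refine ⟨qC K, qC_monic, qC_deg, irr_aux hK qC_monic qC_deg (qC_dvd h3) (qC_eval h3), ?_, ?_, qC_dvd h3⟩
    · rw [qC, ← h2]; simp [coeff_X_pow]
    · rw [qC, ← h2]; simp [coeff_X_pow]

open Cfsg.Lie Cfsg.Agent.H78.Pw Cfsg.Agent.H122.Pw

theorem pi_three_nine [Finite K] (hK : Nat.card K = 9) : PI 3 K 91 := by
  have h : PI 3 K (∑ a ∈ Finset.range 3, Nat.card K ^ a) := PI.of_irr fun L hL U hU => by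
    obtain ⟨X, Y, e, hX, hY, -⟩ := H126.M3.m3_lu (by rw [hK]; norm_num) L U hL hU
    exact ⟨X, Y, e, hX, hY⟩
  rw [hK] at h
  exact h

/-- **`E₈(9)`**: the block of type `A₄` is left -/
theorem six_E8_9 [Finite K] (hK : Nat.card K = 9) (h5 : PI 5 K 7381) : All 6 ↥(chevE8.group K) :=
  six_E8_nine hK h5 (pi_three_nine hK)

end Cfsg.Agent.H85.Pw.Nine
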