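import Cfsg.Agent.H85.Pw.Roots
import Cfsg.Agent.H194.Pw.Own

/-!
# The eigenvalues of an irreducible element over a given finite extension (S2465)

* `ev_spec` : the eigenvalues of `X` in `SL_k(K)`, irreducible characteristic polynomial, over `K'`, `|K'| = q ^ d`,
  `k ∣ d`, are `z ^ (q ^ a)`, `a < k`.
-/

set_option autoImplicit false
set_option linter.unusedSectionVars false

namespace Cfsg.Agent.H85.Pw

open Polynomial

universe u

theorem ev_spec {K : Type u} [Field K] [Finite K] {K' : Type} [Field K'] [Finite K'] [Algebra K K'] {d k : ℕ}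
    (hK' : Nat.card K' = Nat.card K ^ d) (hk : k ∣ d) (hk0 : 0 < k) {x : Matrix.SpecialLinearGroup (Fin k) K}
    (hx : Irreducible x.1.charpoly) {E : (Fin k → K') → Prop}
    (hE : ∀ z : K', z ^ (Nat.card K ^ k) = z → Function.Injective (fun a : Fin k => z ^ (Nat.card K ^ (a : ℕ))) →
      ∏ a : Fin k, z ^ (Nat.card K ^ (a : ℕ)) = 1 → (∀ N : ℕ, x ^ N = 1 → z ^ N = 1) →
      E fun a : Fin k => z ^ (Nat.card K ^ (a : ℕ))) : Ev (algebraMap K K') E x := by
  classical
  have := Fintype.ofFinite K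
  have hcard : Fintype.card K = Nat.card K := (Nat.card_eq_fintype_card).symm
  obtain ⟨f, hf⟩ : ∃ f, f = x.1.charpoly := ⟨_, rfl⟩
  have hfi : Irreducible f := by rw [hf]; exact hx
  have hm : f.Monic := hf ▸ Matrix.charpoly_monic _
  have hd : f.natDegree = k := by rw [hf, Matrix.charpoly_natDegree_eq_dim, Fintype.card_fin]
  obtain ⟨lam, h1, h2⟩ := exists_lam_map (K' := K') hK' hm hd (irr_dvd hfi (by rw [hd]; exact hk))
  obtain ⟨z, hz⟩ : ∃ z, z = lam ⟨0, hk0⟩ := ⟨_, rfl⟩
  have hroot : (f.map (algebraMap K K')).IsRoot z := by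
    rw [h2, IsRoot.def, eval_prod]
    exact Finset.prod_eq_zero (Finset.mem_univ ⟨0, hk0⟩) (by rw [hz]; simp)
  have haz : aeval z f = 0 := by rwa [IsRoot.def, eval_map_algebraMap] at hroot
  have hmin : minpoly K z = f := by
    rw [← minpoly.eq_of_irreducible_of_monic hfi haz hm]
  have hinj : Function.Injective fun a : Fin k => z ^ (Nat.card K ^ (a : ℕ)) := by
    have h3 : (minpoly K z).natDegree = k := by rw [hmin, hd]
    have := Cfsg.Agent.H934.MF.pow_inj h3
    rwa [hcard] at this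
  have hr : ∀ a : ℕ, (f.map (algebraMap K K')).IsRoot (z ^ (Nat.card K ^ a)) := by
    intro a
    rw [IsRoot.def, eval_map_algebraMap, ← hcard]
    exact Cfsg.Agent.H934.MF.root_pow haz a
  have hsplit : f.map (algebraMap K K') = ∏ a : Fin k, (X - C (z ^ (Nat.card K ^ (a : ℕ)))) := by
    have g1 : (∏ a : Fin k, (X - C (z ^ (Nat.card K ^ (a : ℕ))))) ∣ f.map (algebraMap K K') := by
      refine Finset.prod_dvd_of_coprime ?_ fun a _ => dvd_iff_isRoot.2 (hr a)
      intro a _ b _ hab
      exact isCoprime_X_sub_C_of_isUnit_sub (sub_ne_zero.2 (fun h => hab (hinj h))).isUnit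
    have g2 : (∏ a : Fin k, (X - C (z ^ (Nat.card K ^ (a : ℕ))))).Monic :=
      monic_prod_of_monic _ _ fun a _ => monic_X_sub_C _
    have g3 : (∏ a : Fin k, (X - C (z ^ (Nat.card K ^ (a : ℕ))))).natDegree = k := by
      rw [natDegree_prod_of_monic _ _ fun a _ => monic_X_sub_C _, Finset.sum_congr rfl fun a _ => natDegree_X_sub_C _]
      simp
    refine (eq_of_monic_of_dvd_of_natDegree_le g2 (hm.map _) g1 ?_)
    rw [g3, natDegree_map, hd]
  refine ⟨_, hE z ?_ hinj ?_ fun N hN => root_pow hN (by rw [← hf]; exact hroot), hinj, by rw [← hf]; exact hsplit⟩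
  · have h3 : f ∣ X ^ Nat.card K ^ k - X := irr_dvd hfi (by rw [hd])
    have h4 := hroot.dvd (map_dvd (algebraMap K K') h3)
    rwa [Polynomial.map_sub, Polynomial.map_pow, Polynomial.map_X, IsRoot.def, eval_sub, eval_pow, eval_X,
      sub_eq_zero] at h4
  · exact prod_of_map x (by rw [← hf]; exact hsplit)

end Cfsg.Agent.H85.Pw
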